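import Cfsg.Agent.H696.PSq.Defs
import Cfsg.Agent.H680.Red5009
import Cfsg.Agent.Lib.MinNormalNonabelian
import Cfsg.Agent.Lib.Cores

/-!
# S4844, PS-4: the structure of `C` modulo `O_{p'}` (helper976)
-/

set_option autoImplicit false
set_option linter.unusedSectionVars false

namespace Cfsg.Agent.H976.PSq

open Cfsg Subgroup Cfsg.Agent.H696.PSq Cfsg.Agent.H33
open scoped commutatorElement

universe u

section tools

variable {Q : Type u} [Group Q] [Finite Q] {p : ℕ} [hp : Fact p.Prime]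

theorem mul_comm_of {P : Subgroup Q} (h : IsMulCommutative P) {x y : Q} (hx : x ∈ P) (hy : y ∈ P) : x * y = y * x :=
  congrArg Subtype.val (h.is_comm.comm ⟨x, hx⟩ ⟨y, hy⟩)

/-- abelian Sylow `p`-subgroups: a central `p`-element of the commutator subgroup is trivial (transfer) -/
theorem inf_center (P : Sylow p Q) (hab : IsMulCommutative (P : Subgroup Q)) {z : Q} (hz : z ∈ center Q)
    (hz' : z ∈ commutator Q) {k : ℕ} (hk : z ^ p ^ k = 1) : z = 1 := by
  let _ : CommGroup (P : Subgroup Q) := { (inferInstance : Group (P : Subgroup Q)) with mul_comm := hab.is_comm.comm }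
  let ϕ : (P : Subgroup Q) →* (P : Subgroup Q) := MonoidHom.id _
  have h1 := ϕ.transfer_eq_pow z (fun k g₀ _ => by
    have h2 : z ^ k ∈ center Q := pow_mem hz k
    rw [mul_assoc, ← mem_center_iff.1 h2 g₀, inv_mul_cancel_left])
  have h2 : ϕ.transfer z = 1 := Abelianization.commutator_subset_ker _ hz'
  rw [h2] at h1
  have h3 : z ^ (P : Subgroup Q).index = 1 := (congrArg Subtype.val h1).symm
  have h4 : (p ^ k).Coprime (P : Subgroup Q).index :=
    Nat.Coprime.pow_left k ((Nat.Prime.coprime_iff_not_dvd hp.out).2 P.not_dvd_index)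
  have h5 : orderOf z ∣ 1 := by
    rw [← h4]
    exact Nat.dvd_gcd (orderOf_dvd_of_pow_eq_one hk) (orderOf_dvd_of_pow_eq_one h3)
  exact orderOf_eq_one_iff.1 (Nat.dvd_one.1 h5)

/-- a subgroup with a normal Sylow `p`-subgroup -/
theorem sylow_map_normal {M : Subgroup Q} [M.Normal] (R : Sylow p M) (hR : (R : Subgroup M).Normal) :
    ((R : Subgroup M).map M.subtype).Normal := by
  have : (R : Subgroup M).Characteristic := R.characteristic_of_normal hR
  exact ConjAct.normal_of_characteristic_of_normal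

/-- disjoint normal subgroups -/
theorem card_sup_of {A B : Subgroup Q} [A.Normal] [B.Normal] (h : A ⊓ B = ⊥) :
    Nat.card (A ⊔ B : Subgroup Q) = Nat.card A * Nat.card B := by
  have h1 := Subgroup.card_mul_index (B.subgroupOf (A ⊔ B))
  have h2 : (B.subgroupOf (A ⊔ B)).index = Nat.card A := by
    have e := QuotientGroup.quotientInfEquivProdNormalQuotient A B
    have h3 : (B.subgroupOf A) = ⊥ := by
      rw [Subgroup.subgroupOf_eq_bot, disjoint_iff, inf_comm]
      exact h
    have h4 : Nat.card (A ⧸ B.subgroupOf A) = Nat.card A := by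
      rw [h3]
      exact Nat.card_congr QuotientGroup.quotientBot.toEquiv
    rw [← h4]
    exact (Nat.card_congr e.toEquiv).symm
  rw [h2, Nat.card_congr (Subgroup.subgroupOfEquivOfLe (le_sup_right : B ≤ A ⊔ B)).toEquiv] at h1
  rw [← h1, mul_comm]

/-- Itô-Michler for subgroups without a normal Sylow `p`-subgroup -/
theorem im_simple (hIM : FactIM.{u} p) {T : Subgroup Q} (hT : IsSimpleGroup T)
    (hc : ∀ z ∈ T, (∀ t ∈ T, Commute z t) → z = 1) (hd : p ∣ Nat.card T) : IM p T := by
  by_contra hcon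
  obtain ⟨P⟩ : Nonempty (Sylow p T) := inferInstance
  obtain ⟨hn, hab⟩ := hIM T hcon P
  rcases hT.eq_bot_or_eq_top_of_normal (P : Subgroup T) hn with h | h
  · have h1 : p ∣ Nat.card P := P.dvd_card_of_dvd_card hd
    rw [h, Subgroup.card_bot] at h1
    exact hp.out.one_lt.ne' (Nat.dvd_one.1 h1)
  · obtain ⟨x, hx⟩ : ∃ x : T, x ≠ 1 := exists_ne 1
    apply hx
    refine Subtype.ext (hc x x.2 fun t ht => ?_)
    have h1 : x ∈ (P : Subgroup T) := by rw [h]; trivial
    have h2 : (⟨t, ht⟩ : T) ∈ (P : Subgroup T) := by rw [h]; trivial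
    exact congrArg Subtype.val (congrArg Subtype.val (hab.is_comm.comm ⟨x, h1⟩ ⟨⟨t, ht⟩, h2⟩))

/-- the Sylow `p`-subgroups have exponent `p` -/
theorem pow_eq_one {P : Sylow p Q} (hPe : ∀ x ∈ (P : Subgroup Q), x ^ p = 1) {x : Q} {k : ℕ} (hk : x ^ p ^ k = 1) :
    x ^ p = 1 := by
  have h1 : IsPGroup p (Subgroup.zpowers x) := by
    rintro ⟨y, hy⟩
    obtain ⟨n, rfl⟩ := Subgroup.mem_zpowers_iff.1 hy
    refine ⟨k, Subtype.ext ?_⟩
    change (x ^ n) ^ p ^ k = 1
    rw [← zpow_natCast, ← zpow_mul, mul_comm, zpow_mul, zpow_natCast, hk, one_zpow]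
  obtain ⟨S, hS⟩ := h1.exists_le_sylow
  obtain ⟨g, rfl⟩ := MulAction.exists_smul_eq Q P S
  have h2 : x ∈ ((g • P : Sylow p Q) : Subgroup Q) := hS (Subgroup.mem_zpowers x)
  rw [Sylow.coe_subgroup_smul] at h2
  obtain ⟨y, hy, rfl⟩ := h2
  change (g * y * g⁻¹) ^ p = 1
  rw [conj_pow, hPe y hy, mul_one, mul_inv_cancel]

/-- an element of order `4` of `A₇` -/
def a4 : alternatingGroup (Fin 7) :=
  ⟨Equiv.swap 0 1 * Equiv.swap 1 2 * Equiv.swap 2 3 * Equiv.swap 4 5, by rw [Equiv.Perm.mem_alternatingGroup]; decide⟩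

theorem a4_pow : a4 ^ 4 = 1 := by
  apply Subtype.ext
  change (Equiv.swap 0 1 * Equiv.swap 1 2 * Equiv.swap 2 3 * Equiv.swap 4 5 : Equiv.Perm (Fin 7)) ^ 4 = 1
  decide

theorem a4_sq : a4 ^ 2 ≠ 1 := by
  intro h
  have h1 : (Equiv.swap 0 1 * Equiv.swap 1 2 * Equiv.swap 2 3 * Equiv.swap 4 5 : Equiv.Perm (Fin 7)) ^ 2 = 1 :=
    congrArg Subtype.val h
  revert h1
  decide

/-- `N_Q(M) / C_Q(M) M` embeds in `Out(M)` -/
theorem index_dvd_out (M : Subgroup Q) [M.Normal] :
    (centralizer (M : Set Q) ⊔ M).index ∣ Nat.card (Cfsg.Out M) := by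
  let φ : Q →* Cfsg.Out M := (QuotientGroup.mk' (Cfsg.Inn M)).comp MulAut.conjNormal
  have h1 : φ.ker ≤ centralizer (M : Set Q) ⊔ M := by
    intro q hq
    have h2 : (QuotientGroup.mk' (Cfsg.Inn M)) (MulAut.conjNormal q) = 1 := hq
    rw [← MonoidHom.mem_ker, QuotientGroup.ker_mk'] at h2
    obtain ⟨m, hm⟩ := h2
    have h3 : q * (m : Q)⁻¹ ∈ centralizer (M : Set Q) := by
      rw [mem_centralizer_iff]
      intro x hx
      have h4 := congrArg Subtype.val (congrArg (fun f : MulAut M => f (m⁻¹ * ⟨x, hx⟩ * m)) hm)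
      change (m : Q) * ((m : Q)⁻¹ * x * m) * (m : Q)⁻¹ = q * ((m : Q)⁻¹ * x * m) * q⁻¹ at h4
      have h5 : (m : Q) * ((m : Q)⁻¹ * x * m) * (m : Q)⁻¹ = x := by group
      rw [h5] at h4
      calc x * (q * (m : Q)⁻¹) = (q * ((m : Q)⁻¹ * x * m) * q⁻¹) * (q * (m : Q)⁻¹) := by rw [← h4]
        _ = q * (m : Q)⁻¹ * x := by group
    have h6 : q = q * (m : Q)⁻¹ * m := by group
    rw [h6]
    exact mul_mem (mem_sup_left h3) (mem_sup_right m.2)
  refine (Subgroup.index_dvd_of_le h1).trans ?_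
  rw [Subgroup.index_ker]
  exact Subgroup.card_subgroup_dvd_card _

/-- a normal subgroup contained in the kernel-like piece: existence of minimal normal subgroups -/
theorem exists_min {D : Subgroup Q} (hD : D.Normal) (hne : D ≠ ⊥) :
    ∃ M : Subgroup Q, M.Normal ∧ M ≠ ⊥ ∧ M ≤ D ∧ ∀ N : Subgroup Q, N.Normal → N ≤ M → N = ⊥ ∨ N = M := by
  classical
  have hex : ∃ n, ∃ N : Subgroup Q, N.Normal ∧ N ≠ ⊥ ∧ N ≤ D ∧ Nat.card N = n := ⟨_, D, hD, hne, le_rfl, rfl⟩
  obtain ⟨M, h1, h2, h3, h4⟩ := Nat.find_spec hex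
  refine ⟨M, h1, h2, h3, fun N hN hNM => ?_⟩
  by_cases hb : N = ⊥
  · exact Or.inl hb
  · right
    refine Subgroup.eq_of_le_of_card_ge hNM ?_
    rw [h4]
    exact Nat.find_min' hex ⟨N, hN, hb, hNM.trans h3, rfl⟩

end tools

section main

variable {Q : Type u} [Group Q] [Finite Q] {p : ℕ} [hp : Fact p.Prime]

/-- the core is central -/
theorem core_le_center (P : Sylow p Q) (hPc : IsMulCommutative (P : Subgroup Q))
    (hO : ∀ N : Subgroup Q, N.Normal → ¬ p ∣ N.index → N = ⊤) : pCore p Q ≤ center Q := by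
  have := Lib.Cores.pCore_normal (G := Q) p
  have h1 : centralizer (pCore p Q : Set Q) = ⊤ := by
    refine hO _ inferInstance fun h => ?_
    have h2 : (P : Subgroup Q) ≤ centralizer (pCore p Q : Set Q) := by
      intro x hx
      rw [mem_centralizer_iff]
      intro o ho
      exact mul_comm_of hPc (Lib.Cores.pCore_le_sylow P ho) hx
    exact P.not_dvd_index (h.trans (Subgroup.index_dvd_of_le h2))
  intro x hx
  rw [mem_center_iff]
  intro g
  have h2 : g ∈ centralizer (pCore p Q : Set Q) := by rw [h1]; trivial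
  exact (mem_centralizer_iff.1 h2 x hx).symm

theorem structQ (hIM : FactIM.{u} p) (hSq : FactSq.{u} p) (hOut : FactOut.{u} p) (hyp : Hyp p Q) (P : Sylow p Q)
    (hPc : IsMulCommutative (P : Subgroup Q)) (hPe : ∀ x ∈ (P : Subgroup Q), x ^ p = 1)
    (h3 : p ^ 3 ∣ Nat.card Q) (h4 : ¬ p ^ 4 ∣ Nat.card Q)
    (hp' : ∀ N : Subgroup Q, N.Normal → ¬ p ∣ Nat.card N → N = ⊥)
    (hO : ∀ N : Subgroup Q, N.Normal → ¬ p ∣ N.index → N = ⊤) (hA : p ∣ Nat.card (pCore p Q)) :
    p ^ 2 ∣ Nat.card (pCore p Q) ∨ (p = 3 ∧ ∃ f : Q →* alternatingGroup (Fin 7), Function.Surjective f) := by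
  classical
  have hOn := Lib.Cores.pCore_normal (G := Q) p
  have hOp := Lib.Cores.pCore_isPGroup (G := Q) p
  have hOc := core_le_center P hPc hO
  by_cases hD : commutator Q = ⊥
  · -- `Q` is abelian
    left
    have hc : ∀ x y : Q, x * y = y * x := by
      intro x y
      have h1 : ⁅x, y⁆ ∈ commutator Q := Subgroup.commutator_mem_commutator (mem_top x) (mem_top y)
      rw [hD, mem_bot, commutatorElement_eq_one_iff_mul_comm] at h1
      exact h1
    have hPn : (P : Subgroup Q).Normal := ⟨fun x hx g => by rwa [hc g x, mul_inv_cancel_right]⟩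
    have h1 := hO _ hPn P.not_dvd_index
    have h2 : pCore p Q = ⊤ := by
      rw [eq_top_iff, ← h1]
      exact Lib.Cores.le_pCore hPn P.isPGroup'
    rw [h2, Subgroup.card_top]
    exact (pow_dvd_pow p (by norm_num)).trans h3
  obtain ⟨M, hM, hMb, hMD, hmin⟩ := exists_min (inferInstance : (commutator Q).Normal) hD
  -- `M` is not abelian
  have hMO : ¬ M ≤ pCore p Q := by
    intro h
    apply hMb
    rw [eq_bot_iff]
    intro z hz
    obtain ⟨k, hk⟩ := hOp ⟨z, h hz⟩
    exact inf_center P hPc (hOc (h hz)) (hMD hz) (congrArg Subtype.val hk)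
  have hna : ¬ ∀ x ∈ M, ∀ y ∈ M, Commute x y := by
    intro hab
    obtain ⟨r, hr, hrM, -⟩ := Lib.MinNormalNonabelian.abelian_structure M hMb hmin hab
    by_cases hrp : r = p
    · subst hrp
      exact hMO (Lib.Cores.le_pCore hM hrM)
    · apply hMb
      refine hp' M hM fun h => ?_
      have := Fact.mk hr
      obtain ⟨n, hn⟩ := IsPGroup.iff_card.1 hrM
      rw [hn] at h
      exact hrp ((Nat.prime_dvd_prime_iff_eq hp.out hr).1 (hp.out.dvd_of_dvd_pow h)).symm
  have hpM : p ∣ Nat.card M := by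
    by_contra h
    exact hMb (hp' M hM h)
  have hMns : ¬ IsMulCommutative M := fun h => hna fun x hx y hy => mul_comm_of h hx hy
  have hIMM : IM p M := by
    by_contra hcon
    obtain ⟨R⟩ : Nonempty (Sylow p M) := inferInstance
    obtain ⟨hn, -⟩ := hIM M hcon R
    have h1 := sylow_map_normal R hn
    have h2 : (R : Subgroup M).map M.subtype ≤ pCore p Q :=
      Lib.Cores.le_pCore h1 (R.isPGroup'.map M.subtype)
    rcases hmin _ h1 (Subgroup.map_subtype_le _) with h | h
    · rw [Subgroup.map_eq_bot_iff_of_injective _ M.subtype_injective] at h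
      have h5 : p ∣ Nat.card R := R.dvd_card_of_dvd_card hpM
      rw [h, Subgroup.card_bot] at h5
      exact hp.out.one_lt.ne' (Nat.dvd_one.1 h5)
    · rw [h] at h2
      exact hMO h2
  -- no `p ^ 2`
  have hno : ¬ IM (p * p) Q := by rw [← sq]; exact hyp
  have hCM : centralizer (M : Set Q) ⊓ M = ⊥ := by
    rcases hmin (centralizer (M : Set Q) ⊓ M) inferInstance inf_le_right with h | h
    · exact h
    · exfalso
      apply hna
      intro x hx y hy
      have h1 : y ∈ centralizer (M : Set Q) ⊓ M := by rw [h]; exact hy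
      exact mem_centralizer_iff.1 h1.1 x hx
  have hOM : pCore p Q ⊓ M = ⊥ := by
    rcases hmin (pCore p Q ⊓ M) inferInstance inf_le_right with h | h
    · exact h
    · exact absurd (inf_eq_right.1 h) hMO
  have hOC : pCore p Q ≤ centralizer (M : Set Q) := by
    intro x hx
    rw [mem_centralizer_iff]
    intro m _
    exact mem_center_iff.1 (hOc hx) m
  -- the centralizer of `M` has a normal Sylow `p`-subgroup
  obtain ⟨R⟩ : Nonempty (Sylow p (centralizer (M : Set Q))) := inferInstance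
  have hRn : (R : Subgroup (centralizer (M : Set Q))).Normal := by
    by_contra hcon
    refine hno (H680.Red5009.im_of_two (centralizer (M : Set Q)) M
      (fun a ha b hb => (mem_centralizer_iff.1 ha b hb).symm) hCM ?_ hIMM)
    by_contra h
    exact hcon (hIM _ h R).1
  have hRO : (R : Subgroup (centralizer (M : Set Q))).map (centralizer (M : Set Q)).subtype ≤ pCore p Q :=
    Lib.Cores.le_pCore (sylow_map_normal R hRn) (R.isPGroup'.map _)
  -- `M` is simple
  obtain ⟨hne, hind, hsup, hsimple, hcl, hconj⟩ :=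
    Lib.MinNormalNonabelian.nonabelian_structure M hmin hna
  have hpT : ∀ T ∈ Lib.MinNormalNonabelian.minSet M, p ∣ Nat.card T := by
    by_contra hcon
    push Not at hcon
    obtain ⟨T, hT, hTp⟩ := hcon
    have h1 : ∀ S ∈ Lib.MinNormalNonabelian.minSet M, S ≤ (pPrimeCore p M).map M.subtype := by
      intro S hS
      obtain ⟨g, hg⟩ := hconj T hT S hS
      have hS1 : Nat.card S = Nat.card T := by
        rw [hg]
        exact Nat.card_congr (T.equivMapOfInjective _ (MulAut.conj g).injective).symm.toEquiv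
      have hSM := hS.1
      have hSn : (S.subgroupOf M).Normal := by
        refine ⟨fun x hx m => ?_⟩
        exact (mem_normalizer_iff.1 (hS.2.2.1 m.2) x).1 hx
      have h2 : S.subgroupOf M ≤ pPrimeCore p M := by
        refine Lib.Cores.le_pPrimeCore hSn ?_
        rw [Nat.card_congr (Subgroup.subgroupOfEquivOfLe hSM).toEquiv, hS1]
        exact Nat.Coprime.symm ((Nat.Prime.coprime_iff_not_dvd hp.out).2 hTp)
      intro x hx
      exact ⟨⟨x, hSM hx⟩, h2 hx, rfl⟩
    have h2 : M ≤ (pPrimeCore p M).map M.subtype := by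
      conv_lhs => rw [← hsup]
      exact sSup_le h1
    have h3 : Nat.card M ∣ Nat.card (pPrimeCore p M) :=
      (Subgroup.card_dvd_of_le h2).trans (Subgroup.card_map_dvd _ _)
    have h5 := Lib.Cores.pPrimeCore_coprime (G := M) p
    have h6 : p ∣ Nat.card (pPrimeCore p M) := hpM.trans h3
    exact hp.out.one_lt.ne' (Nat.dvd_one.1 (h5 ▸ Nat.dvd_gcd h6 dvd_rfl))
  obtain ⟨T, hT⟩ := hne
  have hall : ∀ S ∈ Lib.MinNormalNonabelian.minSet M, S = T := by
    intro S hS
    by_contra hST
    have hn : ∀ S ∈ Lib.MinNormalNonabelian.minSet M, (S.subgroupOf M).Normal := fun S hS =>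
      ⟨fun x hx m => (mem_normalizer_iff.1 (hS.2.2.1 m.2) x).1 hx⟩
    have := hn S hS
    have := hn T hT
    have hd : S ⊓ T = ⊥ := disjoint_iff.1 (hind.pairwiseDisjoint hS hT hST)
    have him : ∀ S ∈ Lib.MinNormalNonabelian.minSet M, IM p (S.subgroupOf M) := fun S hS =>
      (im_simple hIM (hsimple S hS) (hcl S hS) (hpT S hS)).of_equiv (Subgroup.subgroupOfEquivOfLe hS.1)
    have h1 : IM (p * p) M := by
      refine H680.Red5009.im_of_two (S.subgroupOf M) (T.subgroupOf M) (fun a ha b hb => ?_) ?_ (him S hS) (him T hT)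
      · exact Subtype.ext (Lib.MinNormal.commute_of_mem hind (fun S hS => hS.2.2.1) (fun S hS => hS.1) hS hT hST
          ha hb).eq
      · rw [eq_bot_iff]
        rintro x ⟨hx1, hx2⟩
        have h2 : (x : Q) ∈ S ⊓ T := ⟨hx1, hx2⟩
        rw [hd, mem_bot] at h2
        exact mem_bot.2 (Subtype.ext h2)
    exact hno (h1.of_normal M)
  have hMT : M = T := by
    rw [← hsup]
    apply le_antisymm
    · exact sSup_le fun S hS => (hall S hS).le
    · exact le_sSup hT
  have hMs : IsSimpleGroup M := by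
    rw [hMT]
    exact hsimple T hT
  -- the order of `O ⊔ M`
  have hcOM := card_sup_of hOM
  have hcCM := card_sup_of hCM
  have hOMn : (pCore p Q ⊔ M).Normal := inferInstance
  have hprod : Nat.card (pCore p Q ⊔ M : Subgroup Q) = Nat.card Q → p ^ 2 ∣ Nat.card (pCore p Q) ∨ p ^ 2 ∣ Nat.card M := by
    intro h
    rw [h] at hcOM
    obtain ⟨k, hk⟩ := IsPGroup.iff_card.1 hOp
    by_cases hk2 : 2 ≤ k
    · left; rw [hk]; exact pow_dvd_pow p hk2
    · right
      rw [hcOM, hk] at h3
      have h5 : p ^ 2 * p ^ 1 ∣ Nat.card M * p ^ 1 := by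
        rw [← pow_add]
        refine h3.trans ?_
        rw [mul_comm]
        exact mul_dvd_mul_left _ (pow_dvd_pow p (by omega))
      exact Nat.dvd_of_mul_dvd_mul_right (pow_pos hp.out.pos 1) h5
  by_cases hsq : p ^ 2 ∣ Nat.card M
  · right
    rcases hSq M hMns hsq with h | ⟨hp3, ⟨e⟩⟩
    · exact absurd (h.of_normal M) hyp
    have hp2 : p ≠ 2 := by
      rintro rfl
      have h5 : ((e.symm a4 : M) : Q) ^ 2 ^ 2 = 1 := by
        have h6 : (e.symm a4) ^ 2 ^ 2 = 1 := by
          rw [← map_pow]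
          change e.symm (a4 ^ 4) = 1
          rw [a4_pow, map_one]
        exact congrArg Subtype.val h6
      have h6 := pow_eq_one hPe h5
      apply a4_sq
      have h7 : (e.symm a4) ^ 2 = 1 := Subtype.ext h6
      rw [← map_pow] at h7
      exact e.symm.injective (by rw [h7, map_one])
    have hp3' : p = 3 := by
      have := hp.out.two_le
      omega
    have htop : pCore p Q ⊔ M = ⊤ := by
      refine hO _ hOMn fun h => h4 ?_
      rw [← (pCore p Q ⊔ M).card_mul_index, hcOM, show p ^ 4 = p * p ^ 2 * p by ring]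
      exact mul_dvd_mul (mul_dvd_mul hA hsq) h
    let g : M →* Q ⧸ pCore p Q := (QuotientGroup.mk' (pCore p Q)).comp M.subtype
    have hg : Function.Bijective g := by
      constructor
      · rw [injective_iff_map_eq_one]
        intro m hm
        have h5 : (m : Q) ∈ pCore p Q := (QuotientGroup.eq_one_iff _).1 hm
        have h6 : (m : Q) ∈ pCore p Q ⊓ M := ⟨h5, m.2⟩
        rw [hOM, mem_bot] at h6
        exact Subtype.ext h6
      · intro y
        obtain ⟨q, rfl⟩ := QuotientGroup.mk'_surjective _ y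
        have h5 : q ∈ pCore p Q ⊔ M := by rw [htop]; trivial
        rw [← SetLike.mem_coe, Subgroup.normal_mul] at h5
        obtain ⟨o, ho, m, hm, rfl⟩ := h5
        refine ⟨⟨m, hm⟩, ?_⟩
        change QuotientGroup.mk' (pCore p Q) m = QuotientGroup.mk' (pCore p Q) (o * m)
        rw [map_mul, show QuotientGroup.mk' (pCore p Q) o = 1 from (QuotientGroup.eq_one_iff o).2 ho, one_mul]
    let eg : M ≃* Q ⧸ pCore p Q := MulEquiv.ofBijective g hg
    exact ⟨hp3', (e.toMonoidHom.comp eg.symm.toMonoidHom).comp (QuotientGroup.mk' (pCore p Q)),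
      (e.surjective.comp eg.symm.surjective).comp (QuotientGroup.mk'_surjective _)⟩
  · left
    have hout := hOut M hMns hpM hsq
    have htop : pCore p Q ⊔ M = ⊤ := by
      refine hO _ hOMn fun h => ?_
      have h5 : ¬ p ∣ (centralizer (M : Set Q) ⊔ M).index := fun h => hout (h.trans (index_dvd_out M))
      have h6 := (pCore p Q ⊔ M).card_mul_index
      have h7 := (centralizer (M : Set Q) ⊔ M).card_mul_index
      rw [hcOM] at h6
      rw [hcCM] at h7
      have h8 := (R : Subgroup (centralizer (M : Set Q))).card_mul_index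
      have h9 : Nat.card R ∣ Nat.card (pCore p Q) := by
        rw [Nat.card_congr ((R : Subgroup (centralizer (M : Set Q))).equivMapOfInjective _
          (centralizer (M : Set Q)).subtype_injective).toEquiv]
        exact Subgroup.card_dvd_of_le hRO
      obtain ⟨c, hc⟩ := h9
      have hMpos : 0 < Nat.card M := Nat.card_pos
      have hRpos : 0 < Nat.card R := Nat.card_pos
      have h10 : c * (pCore p Q ⊔ M).index =
          (R : Subgroup (centralizer (M : Set Q))).index * (centralizer (M : Set Q) ⊔ M).index := by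
        apply Nat.eq_of_mul_eq_mul_left (Nat.mul_pos hRpos hMpos)
        have h11 : Nat.card R * c * Nat.card M * (pCore p Q ⊔ M).index = Nat.card Q := by rw [← hc]; exact h6
        have h12 : Nat.card R * (R : Subgroup (centralizer (M : Set Q))).index * Nat.card M *
            (centralizer (M : Set Q) ⊔ M).index = Nat.card Q := by rw [h8]; exact h7
        calc Nat.card R * Nat.card M * (c * (pCore p Q ⊔ M).index) =
            Nat.card R * c * Nat.card M * (pCore p Q ⊔ M).index := by ring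
          _ = Nat.card R * (R : Subgroup (centralizer (M : Set Q))).index * Nat.card M *
            (centralizer (M : Set Q) ⊔ M).index := by rw [h11, h12]
          _ = _ := by ring
      have h11 : p ∣ (R : Subgroup (centralizer (M : Set Q))).index * (centralizer (M : Set Q) ⊔ M).index := by
        rw [← h10]
        exact Dvd.dvd.mul_left h c
      rcases hp.out.dvd_mul.1 h11 with h12 | h12
      · exact R.not_dvd_index h12
      · exact h5 h12
    refine (hprod (by rw [htop, Subgroup.card_top])).resolve_right hsq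

end main

section final

variable {C : Type u} [Group C] [Finite C] {p : ℕ} [hp : Fact p.Prime]

/-- a `p`-subgroup of `N` maps injectively modulo the `p'`-core -/
theorem card_map_eq {N : Type u} [Group N] [Finite N] {H : Subgroup N} [H.Normal] (hH : ¬ p ∣ Nat.card H)
    (B : Subgroup N) (hB : IsPGroup p B) : Nat.card (B.map (QuotientGroup.mk' H)) = Nat.card B := by
  have h1 : Function.Injective ((QuotientGroup.mk' H).comp B.subtype) := by
    rw [injective_iff_map_eq_one]
    intro b hb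
    have h2 : (b : N) ∈ H := (QuotientGroup.eq_one_iff _).1 hb
    obtain ⟨k, hk⟩ := IsPGroup.iff_orderOf.1 hB b
    have h3 : orderOf (b : N) ∣ Nat.card H := by
      rw [← Subgroup.orderOf_mk (b : N) h2]
      exact orderOf_dvd_natCard _
    rw [Subgroup.orderOf_coe, hk] at h3
    have h4 : k = 0 := by
      by_contra h
      exact hH ((dvd_pow_self p h).trans h3)
    rw [h4, pow_zero] at hk
    exact orderOf_eq_one_iff.1 hk
  have h2 : B.map (QuotientGroup.mk' H) = ((QuotientGroup.mk' H).comp B.subtype).range := by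
    rw [MonoidHom.range_comp, Subgroup.range_subtype]
  rw [h2]
  exact (Nat.card_congr (MonoidHom.ofInjective h1).toEquiv).symm

/-- **PS-4.** -/
theorem struct (hIM : FactIM.{u} p) (hSq : FactSq.{u} p) (hOut : FactOut.{u} p)
    (hyp : Hyp p C) {A : Subgroup C} (hA : A ≤ center C)
    (hAc : Nat.card A = p) (P : Sylow p C) (hPc : IsMulCommutative (P : Subgroup C)) (hPe : ∀ x ∈ (P : Subgroup C), x ^ p = 1)
    (h3 : (Nat.card C).factorization p = 3) :
    (∃ N H : Subgroup C, N.Normal ∧ (P : Subgroup C) ≤ N ∧ H.Normal ∧ H ≤ N ∧ ¬ p ∣ Nat.card H ∧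
      ∃ X₀ : Dir p (P : Subgroup C) A, ∀ g ∈ N, ∀ x ∈ (X₀ : Subgroup C), g * x * g⁻¹ ∈ H ⊔ (X₀ : Subgroup C)) ∨
    (p = 3 ∧ ∃ N : Subgroup C, N.Normal ∧ (P : Subgroup C) ≤ N ∧
      ∃ f : N →* alternatingGroup (Fin 7), Function.Surjective f ∧ ¬ 9 ∣ Nat.card f.ker) := by
  classical
  have hC0 : Nat.card C ≠ 0 := Nat.card_pos.ne'
  have hd3 : p ^ 3 ∣ Nat.card C := (hp.out.pow_dvd_iff_le_factorization hC0).2 h3.ge
  have hd4 : ¬ p ^ 4 ∣ Nat.card C := fun h => by
    have := (hp.out.pow_dvd_iff_le_factorization hC0).1 h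
    omega
  set N : Subgroup C := normalClosure ((P : Subgroup C) : Set C) with hN
  have hPN : (P : Subgroup C) ≤ N := subset_normalClosure
  set H' : Subgroup N := pPrimeCore p N with hH'
  have hH'n : H'.Normal := Lib.Cores.pPrimeCore_normal p
  have hH'c : H'.Characteristic := Lib.Cores.pPrimeCore_characteristic p
  have hH'p : ¬ p ∣ Nat.card H' := fun h => hp.out.one_lt.ne'
    (Nat.dvd_one.1 ((Lib.Cores.pPrimeCore_coprime (G := N) p) ▸ Nat.dvd_gcd h dvd_rfl))
  set π : N →* N ⧸ H' := QuotientGroup.mk' H' with hπ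
  have hπs : Function.Surjective π := QuotientGroup.mk'_surjective H'
  let P' : Sylow p N := P.subtype hPN
  let P2 : Sylow p (N ⧸ H') := P'.mapSurjective hπs
  have hP2 : (P2 : Subgroup (N ⧸ H')) = ((P : Subgroup C).subgroupOf N).map π := rfl
  have hP2c : IsMulCommutative (P2 : Subgroup (N ⧸ H')) := by
    refine ⟨⟨?_⟩⟩
    rintro ⟨_, x, hx, rfl⟩ ⟨_, y, hy, rfl⟩
    refine Subtype.ext ?_
    change π x * π y = π y * π x
    rw [← map_mul, ← map_mul]
    exact congrArg π (Subtype.ext (mul_comm_of hPc hx hy))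
  have hP2e : ∀ x ∈ (P2 : Subgroup (N ⧸ H')), x ^ p = 1 := by
    rw [hP2]
    rintro _ ⟨x, hx, rfl⟩
    rw [← map_pow, show x ^ p = 1 from Subtype.ext (hPe x hx), map_one]
  have hypQ : Hyp p (N ⧸ H') := fun h => hyp ((h.of_quotient H').of_normal N)
  have hNC : Nat.card N ∣ Nat.card C := Subgroup.card_subgroup_dvd_card N
  have hQN : Nat.card (N ⧸ H') ∣ Nat.card N := ⟨_, Subgroup.card_eq_card_quotient_mul_card_subgroup H'⟩
  have hPcard : Nat.card (P : Subgroup C) = p ^ 3 := by rw [P.card_eq_multiplicity, h3]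
  have h3Q : p ^ 3 ∣ Nat.card (N ⧸ H') := by
    have h5 := card_map_eq hH'p ((P : Subgroup C).subgroupOf N) (P.isPGroup'.comap_subtype)
    rw [Nat.card_congr (Subgroup.subgroupOfEquivOfLe hPN).toEquiv, hPcard] at h5
    rw [← h5]
    exact Subgroup.card_subgroup_dvd_card _
  have h4Q : ¬ p ^ 4 ∣ Nat.card (N ⧸ H') := fun h => hd4 (h.trans (hQN.trans hNC))
  have hp'Q : ∀ K : Subgroup (N ⧸ H'), K.Normal → ¬ p ∣ Nat.card K → K = ⊥ := by
    intro K hK h
    rw [eq_bot_iff, ← Lib.Cores.pPrimeCore_quotient_pPrimeCore (G := N) p]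
    exact Lib.Cores.le_pPrimeCore hK (Nat.Coprime.symm ((Nat.Prime.coprime_iff_not_dvd hp.out).2 h))
  have hOQ : ∀ K : Subgroup (N ⧸ H'), K.Normal → ¬ p ∣ K.index → K = ⊤ := by
    intro K hK h
    set N2 := K.comap π with hN2
    have hN2n : N2.Normal := inferInstance
    have hidx : N2.index = K.index := Subgroup.index_comap_of_surjective K hπs
    have h5 : N ≤ N2.map N.subtype := by
      refine (Subgroup.closure_le _).2 ?_
      intro y hy
      obtain ⟨a, ha, hay⟩ := Group.mem_conjugatesOfSet_iff.1 hy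
      obtain ⟨c, rfl⟩ := isConj_iff.1 hay
      have hyN : c * a * c⁻¹ ∈ N := (inferInstance : N.Normal).conj_mem a (hPN ha) c
      have hyp1 : (⟨c * a * c⁻¹, hyN⟩ : N) ^ p = 1 := by
        apply Subtype.ext
        change (c * a * c⁻¹) ^ p = 1
        rw [conj_pow, hPe a ha, mul_one, mul_inv_cancel]
      refine ⟨⟨c * a * c⁻¹, hyN⟩, ?_, rfl⟩
      rw [SetLike.mem_coe, ← QuotientGroup.eq_one_iff, ← orderOf_eq_one_iff, ← Nat.dvd_one]
      have h6 : p.Coprime N2.index := by rw [hidx]; exact (Nat.Prime.coprime_iff_not_dvd hp.out).2 h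
      rw [← h6]
      refine Nat.dvd_gcd (orderOf_dvd_of_pow_eq_one ?_) (orderOf_dvd_natCard _)
      rw [← QuotientGroup.mk_pow, hyp1]
      rfl
    have h6 : N2 = ⊤ := by
      rw [eq_top_iff]
      intro y _
      obtain ⟨z, hz, hzy⟩ := h5 y.2
      rwa [Subtype.ext (show (z : C) = y from hzy)] at hz
    rw [← Subgroup.map_comap_eq_self_of_surjective hπs K, ← hN2, h6, ← MonoidHom.range_eq_map,
      MonoidHom.range_eq_top.2 hπs]
  have hAp : IsPGroup p A := IsPGroup.of_card (n := 1) (by rw [hAc, pow_one])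
  have hAn : A.Normal := ⟨fun a ha g => by rw [mem_center_iff.1 (hA ha) g]; rwa [mul_inv_cancel_right]⟩
  have hAP : A ≤ (P : Subgroup C) := (Lib.Cores.le_pCore hAn hAp).trans (Lib.Cores.pCore_le_sylow P)
  have hAN : A ≤ N := hAP.trans hPN
  set Ab := (A.subgroupOf N).map π with hAb
  have hAbc : Ab ≤ center (N ⧸ H') := by
    rintro _ ⟨a, ha, rfl⟩
    rw [mem_center_iff]
    intro g
    obtain ⟨g, rfl⟩ := hπs g
    rw [← map_mul, ← map_mul]
    exact congrArg π (Subtype.ext (mem_center_iff.1 (hA ha) g))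
  have hAbn : Ab.Normal := ⟨fun a ha g => by rw [mem_center_iff.1 (hAbc ha) g]; rwa [mul_inv_cancel_right]⟩
  have hAbp : IsPGroup p Ab := (hAp.comap_subtype (K := N)).map π
  have hAbO : Ab ≤ pCore p (N ⧸ H') := Lib.Cores.le_pCore hAbn hAbp
  have hAQ : p ∣ Nat.card (pCore p (N ⧸ H')) := by
    have h5 := card_map_eq hH'p (A.subgroupOf N) (hAp.comap_subtype)
    rw [Nat.card_congr (Subgroup.subgroupOfEquivOfLe hAN).toEquiv, hAc] at h5
    have h6 := Subgroup.card_dvd_of_le hAbO
    rwa [hAb, h5] at h6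
  have hcen := core_le_center P2 hP2c hOQ
  rcases structQ hIM hSq hOut hypQ P2 hP2c hP2e h3Q h4Q hp'Q hOQ hAQ with hO2 | ⟨rfl, f, hf⟩
  · left
    set X1 : Subgroup C := (P : Subgroup C) ⊓ ((pCore p (N ⧸ H')).comap π).map N.subtype with hX1
    have hX1N : X1 ≤ N := inf_le_left.trans hPN
    have hX1c : p ^ 2 ∣ Nat.card X1 := by
      have h5 : pCore p (N ⧸ H') ≤ (X1.subgroupOf N).map π := by
        intro o ho
        have h6 : o ∈ (P2 : Subgroup (N ⧸ H')) := Lib.Cores.pCore_le_sylow P2 ho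
        rw [hP2] at h6
        obtain ⟨x, hx, rfl⟩ := h6
        exact ⟨x, ⟨hx, x, ho, rfl⟩, rfl⟩
      have h6 := (hO2.trans (Subgroup.card_dvd_of_le h5)).trans (Subgroup.card_map_dvd _ _)
      rwa [Nat.card_congr (Subgroup.subgroupOfEquivOfLe hX1N).toEquiv] at h6
    have hAX1 : A ≤ X1 := fun a ha => ⟨hAP ha, ⟨a, hAN ha⟩, hAbO ⟨⟨a, hAN ha⟩, ha, rfl⟩, rfl⟩
    have hAc1 : Nat.card (A.subgroupOf X1) = p ^ 1 := by
      rw [Nat.card_congr (Subgroup.subgroupOfEquivOfLe hAX1).toEquiv, hAc, pow_one]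
    obtain ⟨K, hK, hAK⟩ := Sylow.exists_subgroup_card_pow_prime_le p hX1c (A.subgroupOf X1) hAc1 (by norm_num)
    refine ⟨N, H'.map N.subtype, inferInstance, hPN, ConjAct.normal_of_characteristic_of_normal,
      Subgroup.map_subtype_le _, ?_, ⟨K.map X1.subtype, ?_, ?_, ?_⟩, ?_⟩
    · rwa [← Nat.card_congr (H'.equivMapOfInjective _ N.subtype_injective).toEquiv]
    · exact (Subgroup.map_subtype_le _).trans inf_le_left
    · rwa [← Nat.card_congr (K.equivMapOfInjective _ X1.subtype_injective).toEquiv]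
    · intro a ha
      exact ⟨⟨a, hAX1 ha⟩, hAK ha, rfl⟩
    · intro g hg x hx
      have hx' : x ∈ K.map X1.subtype := hx
      obtain ⟨k, hk, rfl⟩ := hx
      obtain ⟨-, n, hn, hnk⟩ := k.2
      have h5 : (⟨g, hg⟩ : N) * n * (⟨g, hg⟩ : N)⁻¹ * n⁻¹ ∈ H' := by
        rw [← QuotientGroup.eq_one_iff]
        change π ((⟨g, hg⟩ : N) * n * (⟨g, hg⟩ : N)⁻¹ * n⁻¹) = 1
        have h6 : π n ∈ center (N ⧸ H') := hcen hn
        rw [map_mul, map_mul, map_mul, mem_center_iff.1 h6 (π ⟨g, hg⟩), map_inv, map_inv, mul_inv_cancel_right,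
          mul_inv_cancel]
      have h6 : g * (k : C) * g⁻¹ = (g * (k : C) * g⁻¹ * (k : C)⁻¹) * k := by group
      change g * (k : C) * g⁻¹ ∈ _
      rw [h6]
      refine mul_mem (mem_sup_left ⟨_, h5, ?_⟩) (mem_sup_right hx')
      change g * (n : C) * g⁻¹ * (n : C)⁻¹ = _
      rw [show (n : C) = k from hnk]
  · right
    have hfs : Function.Surjective (f.comp π) := by
      rw [MonoidHom.coe_comp]
      exact hf.comp hπs
    refine ⟨rfl, N, inferInstance, hPN, f.comp π, hfs, fun h9 => hd4 ?_⟩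
    have h5 := (f.comp π).ker.card_mul_index
    rw [Subgroup.index_ker, MonoidHom.range_eq_top.2 hfs, Subgroup.card_top, H680.Red5009.card_A7] at h5
    refine Dvd.dvd.trans ?_ hNC
    rw [← h5]
    exact (show 3 ^ 4 ∣ 9 * 2520 by norm_num).trans (mul_dvd_mul_right h9 _)

end final

end Cfsg.Agent.H976.PSq
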